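import Cfsg.Agent.H852.IMHSThree
import Cfsg.Agent.H153.ZerosTool
import Cfsg.Agent.H713.Spor.Tool
import Cfsg.Agent.H547.SelfCent.McLHS
import Cfsg.Agent.H771.KHS
import Cfsg.Agent.H393.Iso.HS

/-!
# `HS` has at least 22 conjugacy classes (helper393)

Three class functions on the 100 points (joined to the image, fixed points of the square and of the fifth power)
have 21 different values; elements of order 11 are not conjugate to their inverses.
-/

set_option autoImplicit false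

namespace Cfsg.Agent.H393.Van.HSClasses

open Cfsg Equiv Subgroup
open Cfsg.Agent.SporadicA.PermTab Cfsg.Agent.HN.HS100 Cfsg.Agent.H852.IMHS

/-- points joined to their image -/
noncomputable def F1 (g : Q) : ℕ :=
  (Finset.univ.filter fun i : Fin 100 => Nat.beq (bitM 100 adjA i ((g : Perm (Fin 100)) i : Fin 100)) 1 = true).card

/-- fixed points of a power -/
def FP (k : ℕ) (g : Q) : ℕ := (Finset.univ.filter fun i : Fin 100 => ((g : Perm (Fin 100)) ^ k) i = i).card

theorem F1_conj (g c : Q) : F1 (c * g * c⁻¹) = F1 g := by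
  unfold F1
  refine (Finset.card_bij (fun i _ => (c : Perm (Fin 100)) i) ?_ ?_ ?_).symm
  · intro i hi
    rw [Finset.mem_filter] at hi ⊢
    refine ⟨Finset.mem_univ _, ?_⟩
    have h1 : ((c * g * c⁻¹ : Q) : Perm (Fin 100)) ((c : Perm (Fin 100)) i) =
        (c : Perm (Fin 100)) ((g : Perm (Fin 100)) i) := by
      simp [Perm.mul_apply]
    rw [h1, adj_eq]
    exact hi.2
  · intro i _ j _ h
    exact (c : Perm (Fin 100)).injective h
  · intro j hj
    obtain ⟨i, rfl⟩ := (c : Perm (Fin 100)).surjective j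
    refine ⟨i, ?_, rfl⟩
    rw [Finset.mem_filter] at hj ⊢
    refine ⟨Finset.mem_univ _, ?_⟩
    have h1 : ((c * g * c⁻¹ : Q) : Perm (Fin 100)) ((c : Perm (Fin 100)) i) =
        (c : Perm (Fin 100)) ((g : Perm (Fin 100)) i) := by
      simp [Perm.mul_apply]
    rw [h1, adj_eq] at hj
    exact hj.2

theorem FP_conj (k : ℕ) (g c : Q) : FP k (c * g * c⁻¹) = FP k g := by
  unfold FP
  have h1 : ((c * g * c⁻¹ : Q) : Perm (Fin 100)) ^ k = (c : Perm (Fin 100)) * (g : Perm (Fin 100)) ^ k *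
      (c : Perm (Fin 100))⁻¹ := by
    rw [← conj_pow]
    rfl
  have h2 : ∀ i, (((c * g * c⁻¹ : Q) : Perm (Fin 100)) ^ k) ((c : Perm (Fin 100)) i) =
      (c : Perm (Fin 100)) (((g : Perm (Fin 100)) ^ k) i) := by
    intro i
    rw [h1]
    simp [Perm.mul_apply]
  refine (Finset.card_bij (fun i _ => (c : Perm (Fin 100)) i) ?_ ?_ ?_).symm
  · intro i hi
    rw [Finset.mem_filter] at hi ⊢
    refine ⟨Finset.mem_univ _, ?_⟩
    rw [h2, hi.2]
  · intro i _ j _ h
    exact (c : Perm (Fin 100)).injective h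
  · intro j hj
    obtain ⟨i, rfl⟩ := (c : Perm (Fin 100)).surjective j
    refine ⟨i, ?_, rfl⟩
    rw [Finset.mem_filter] at hj ⊢
    refine ⟨Finset.mem_univ _, ?_⟩
    rw [h2] at hj
    exact (c : Perm (Fin 100)).injective hj.2

/-- the invariants -/
noncomputable def inv3 (g : Q) : ℕ × ℕ × ℕ := (F1 g, FP 2 g, FP 5 g)

theorem inv3_conj (x y : Q) (h : IsConj x y) : inv3 x = inv3 y := by
  obtain ⟨c, rfl⟩ := isConj_iff.1 h
  unfold inv3
  rw [F1_conj, FP_conj, FP_conj]

/-- the check of the values -/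
def chk3 (L : List ℕ) (v : ℕ × ℕ × ℕ) : Bool :=
  (cntB (fun i => Nat.beq (bitM 100 adjA i (ev L i)) 1) 100 v.1) &&
    (cntB (fun i => Nat.beq (H153.Zeros.itr (ev L) 2 i) i) 100 v.2.1 &&
      cntB (fun i => Nat.beq (H153.Zeros.itr (ev L) 5 i) i) 100 v.2.2)

theorem inv3_of_chk {L : List ℕ} {v : ℕ × ℕ × ℕ} (h : chk3 L v = true) {g : Q}
    (hg : ∀ i : Fin 100, ((g : Perm (Fin 100)) i : ℕ) = ev L i) : inv3 g = v := by
  unfold chk3 at h
  rw [Bool.and_eq_true, Bool.and_eq_true] at h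
  obtain ⟨h1, h2, h3⟩ := h
  have key : ∀ (k m : ℕ), cntB (fun i => Nat.beq (H153.Zeros.itr (ev L) k i) i) 100 m = true → FP k g = m := by
    intro k m hk
    rw [← card_fin_of_cntB _ _ _ hk]
    unfold FP
    congr 1
    ext i
    rw [Finset.mem_filter, Finset.mem_filter]
    refine and_congr_right fun _ => ?_
    rw [Fin.ext_iff, H153.Zeros.pow_eq hg]
    exact ⟨fun h => by rw [h]; exact Nat.beq_refl _, fun h => Nat.eq_of_beq_eq_true h⟩
  obtain ⟨v1, v2, v3⟩ := v
  unfold inv3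
  rw [key 2 _ h2, key 5 _ h3]
  congr 1
  refine Eq.trans ?_ (card_fin_of_cntB _ _ _ h1)
  unfold F1
  simp only [hg]

/-- words and values -/
def cls : List (List ℕ × (ℕ × ℕ × ℕ)) := [
  ([tYi, tY], (0, 100, 100)),
  ([tX], (40, 100, 0)),
  ([tY, tY, tY], (0, 100, 20)),
  ([tYi, tYi], (0, 10, 10)),
  ([tY, tX, tY, tX, tY, tY, tX], (80, 20, 0)),
  ([tW, tW, tYi], (8, 20, 4)),
  ([tX, tWi, tY], (16, 20, 8)),
  ([tWi, tX, tWi, tWi, tX, tWi], (0, 0, 100)),
  ([tW, tY, tY, tX, tYi, tWi, tWi, tYi, tW], (50, 0, 100)),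
  ([tY, tW], (10, 5, 100)),
  ([tWi, tYi, tWi, tX, tYi], (40, 10, 0)),
  ([tYi], (24, 10, 2)),
  ([tY, tX, tWi, tY], (14, 2, 2)),
  ([tX, tYi], (20, 4, 0)),
  ([tWi, tX, tYi], (24, 8, 2)),
  ([tW, tW, tX, tW, tYi, tX], (10, 0, 20)),
  ([tWi, tWi, tX], (40, 0, 0)),
  ([tY, tWi, tWi, tYi, tW], (22, 1, 1)),
  ([tYi, tYi, tYi, tX], (20, 2, 0)),
  ([tY, tWi, tX, tW, tX], (30, 0, 10)),
  ([tW, tX, tW, tW, tY], (30, 0, 0))]

theorem cls_chk : (cls.all fun a => chk3 a.1 a.2) = true := by decide +kernel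

theorem cls_mem : ∀ a ∈ cls, ∀ P ∈ a.1, InG Q P := by
  intro a ha P hP
  apply mem5
  revert a
  unfold cls
  simp only [List.mem_cons, List.not_mem_nil, or_false]
  rintro a (rfl | rfl | rfl | rfl | rfl | rfl | rfl | rfl | rfl | rfl | rfl | rfl | rfl | rfl | rfl | rfl | rfl | rfl
    | rfl | rfl | rfl) hP <;> simp only [List.mem_cons, List.not_mem_nil, or_false] at hP <;> tauto

theorem cls_val {v : ℕ × ℕ × ℕ} (hv : v ∈ cls.map Prod.snd) : ∃ g : Q, inv3 g = v := by
  rw [List.mem_map] at hv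
  obtain ⟨a, ha, rfl⟩ := hv
  obtain ⟨g, hg, h⟩ := exists_ev a.1 (cls_mem a ha)
  exact ⟨⟨g, hg⟩, inv3_of_chk (List.all_eq_true.1 cls_chk a ha) h⟩

/-- a word of order 11 and its inverse -/
def w11 : List ℕ := [tY, tWi, tWi, tYi, tW]
def w11i : List ℕ := [tWi, tY, tW, tW, tYi]

theorem card_Q' : Nat.card Q = 44352000 := Cfsg.Agent.HN.AutBound.card_Q

theorem simple_Q : IsSimpleGroup Q := HN.AutHS.nonempty_Q.2

theorem iso_Q : Spor.IsoHS ↥Q := by
  obtain ⟨⟨e⟩, -⟩ := HN.AutHS.nonempty_Q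
  exact ⟨e⟩

theorem cent_eleven {g : Q} (hg : orderOf g = 11) : Nat.card (centralizer ({g} : Set Q)) = 11 := by
  have := simple_Q
  exact H547.SelfCent.McLHS.hs iso_Q (H393.Iso.na_hs iso_Q) card_Q' hg

theorem not_real {g : Q} (hg : orderOf g = 11) : ¬ IsConj g g⁻¹ := by
  have : Fact (Nat.Prime 11) := ⟨by norm_num⟩
  refine H713.not_isConj_inv_of_odd ?_ hg (cent_eleven hg) (by norm_num) ?_
  · rw [card_Q']
    exact H713.factorization_eq_one (by norm_num) (by norm_num)
  · rw [card_Q']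
    decide

/-- **At least 22 classes.** -/
theorem classes : 22 ≤ Nat.card (ConjClasses Q) := by
  classical
  have hnd : (cls.map Prod.snd).Nodup := by decide +kernel
  set s : Finset (ℕ × ℕ × ℕ) := (cls.map Prod.snd).toFinset with hs
  have hscard : s.card = 21 := by rw [hs, List.toFinset_card_of_nodup hnd]; rfl
  obtain ⟨k, hkQ, hk⟩ := exists_ev w11 (G := Q) (fun P hP => mem5 P (by
    unfold w11 at hP
    simp only [List.mem_cons, List.not_mem_nil, or_false] at hP ⊢
    tauto))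
  obtain ⟨l, hlQ, hl⟩ := exists_ev w11i (G := Q) (fun P hP => mem5 P (by
    unfold w11i at hP
    simp only [List.mem_cons, List.not_mem_nil, or_false] at hP ⊢
    tauto))
  set h : Q := ⟨k, hkQ⟩ with hh
  set h' : Q := ⟨l, hlQ⟩ with hh'
  have hinv : h' = h⁻¹ := by
    rw [eq_inv_iff_mul_eq_one]
    apply Subtype.ext
    refine Equiv.ext fun i => Fin.ext ?_
    show (l (k i) : ℕ) = i
    rw [hl, hk]
    have : allB (fun i => Nat.beq (ev w11i (ev w11 i)) i) 100 = true := by decide +kernel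
    exact Nat.eq_of_beq_eq_true ((allB_iff _ _).1 this i i.2)
  have horder : orderOf h = 11 := by
    have : Fact (Nat.Prime 11) := ⟨by norm_num⟩
    refine orderOf_eq_prime ?_ ?_
    · apply Subtype.ext
      exact (H153.Zeros.pow_eq_one_iff hk 11).2 (by decide +kernel)
    · intro h1
      have h2 : k = 1 := congrArg Subtype.val h1
      have h3 := hk 0
      rw [h2] at h3
      revert h3
      show ¬ (((0 : Fin 100) : ℕ) = ev w11 0)
      decide +kernel
  have hv : inv3 h = (22, 1, 1) := inv3_of_chk (L := w11) (by decide +kernel) hk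
  have hv' : inv3 h⁻¹ = (22, 1, 1) := by
    rw [← hinv]
    exact inv3_of_chk (L := w11i) (by decide +kernel) hl
  have hex : ∀ v ∈ s, ∃ g : Q, inv3 g = v ∧ (v = (22, 1, 1) → g = h) := by
    intro v hv0
    by_cases h1 : v = (22, 1, 1)
    · exact ⟨h, by rw [hv, h1], fun _ => rfl⟩
    · obtain ⟨g, hg⟩ := cls_val (v := v) (by rwa [hs, List.mem_toFinset] at hv0)
      exact ⟨g, hg, fun h2 => absurd h2 h1⟩
  choose! e he1 he2 using hex
  let f : Option s → ConjClasses Q := fun o => match o with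
    | none => ConjClasses.mk h⁻¹
    | some v => ConjClasses.mk (e v)
  have hf : Function.Injective f := by
    have h0 : ∀ v : s, ConjClasses.mk (e v) ≠ ConjClasses.mk h⁻¹ := by
      intro v hc
      have h1 := ConjClasses.mk_eq_mk_iff_isConj.1 hc
      have h2 := inv3_conj _ _ h1
      rw [he1 v v.2, hv'] at h2
      rw [he2 v v.2 h2] at h1
      exact not_real horder h1
    rintro (_ | v) (_ | w) hvw
    · rfl
    · exact absurd hvw.symm (h0 w)
    · exact absurd hvw (h0 v)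
    · have h1 := inv3_conj _ _ (ConjClasses.mk_eq_mk_iff_isConj.1 (show ConjClasses.mk (e v) = ConjClasses.mk (e w) from hvw))
      rw [he1 v v.2, he1 w w.2] at h1
      rw [Subtype.ext h1]
  have h1 := Nat.card_le_card_of_injective f hf
  rwa [Nat.card_eq_fintype_card, Fintype.card_option, Fintype.card_coe, hscard] at h1

end Cfsg.Agent.H393.Van.HSClasses
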