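import Cfsg.Agent.H393.Van.IntRow

/-!
# Vanishing at an element of order `3` with centralizer `3 × S₅` by counting rows (helper393)

The generalized decomposition numbers at `x` of the characters of `G` are rows `(a, b, c, d, e)` of integers with
`∑ (a ^ 2 - a b + b ^ 2 + c ^ 2 - c d + d ^ 2 + e ^ 2) = 21`; so some row is zero if `G` has at least `22`
conjugacy classes.
-/

set_option autoImplicit false

namespace Cfsg.Agent.H393.Van.S5Row

open Cfsg Cfsg.Agent.Characters.Core Cfsg.Agent.H713.Count Equiv Subgroup Cfsg.Agent.H393.Van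
open scoped ComplexConjugate

abbrev S5 := Perm (Fin 5)

/-- `4`-cycle -/
def R : S5 := ⟨![1, 2, 3, 0, 4], ![3, 0, 1, 2, 4], by decide, by decide⟩
/-- transposition -/
def s : S5 := swap 0 2
/-- `5`-cycle -/
def c5 : S5 := finRotate 5

/-- the dihedral group in `S₅` -/
def D8 : DihedralGroup 4 →* S5 where
  toFun g := match g with
    | DihedralGroup.r i => R ^ i.val
    | DihedralGroup.sr i => s * R ^ i.val
  map_one' := by decide
  map_mul' := by decide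

/-- the linear characters of the dihedral group -/
def mu (ε δ : ℤˣ) : DihedralGroup 4 →* ℤˣ where
  toFun g := match g with
    | DihedralGroup.r i => ε ^ i.val
    | DihedralGroup.sr i => δ * ε ^ i.val
  map_one' := by decide +revert
  map_mul' := by decide +revert

theorem mu_vals : ∀ ε δ : ℤˣ, mu ε δ (.r 0) = 1 ∧ mu ε δ (.r 1) = ε ∧ mu ε δ (.r 2) = 1 ∧ mu ε δ (.r 3) = ε ∧
    mu ε δ (.sr 0) = δ ∧ mu ε δ (.sr 1) = δ * ε ∧ mu ε δ (.sr 2) = δ ∧ mu ε δ (.sr 3) = δ * ε := by decide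

theorem sum_dihedral (f : DihedralGroup 4 → ℂ) : ∑ g, f g =
    (f (.r 0) + f (.r 1) + f (.r 2) + f (.r 3)) + (f (.sr 0) + f (.sr 1) + f (.sr 2) + f (.sr 3)) := by
  rw [Fintype.sum_equiv DihedralGroup.equivSum f (fun a => f (DihedralGroup.equivSum.symm a))
    (fun g => by rw [Equiv.symm_apply_apply]), Fintype.sum_sum_type]
  congr 1
  · exact Fin.sum_univ_four _
  · exact Fin.sum_univ_four _


section struct

variable {G : Type*} [Group G] {x t : G} {φ : S5 →* G}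

theorem pow_eq_of_comm_inv (hx : orderOf x = 3) (ht : t * x * t⁻¹ = x⁻¹) {k : ℕ}
    (h : x ^ k * t = t * x ^ k) : x ^ k = 1 := by
  have h1 : t * x ^ k * t⁻¹ = (x ^ k)⁻¹ := by rw [← inv_pow, ← ht, conj_pow]
  rw [← h, mul_inv_cancel_right] at h1
  have h2 : (x ^ k) ^ 2 = 1 := by rw [pow_two]; nth_rewrite 1 [h1]; exact inv_mul_cancel _
  have h3 : (x ^ k) ^ 3 = 1 := by rw [← pow_mul, mul_comm, pow_mul, ← hx, pow_orderOf_eq_one, one_pow]
  calc x ^ k = (x ^ k) ^ 3 * ((x ^ k) ^ 2)⁻¹ := by group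
    _ = 1 := by rw [h2, h3, inv_one, mul_one]

theorem fact3 : Fact (Nat.Prime 3) := ⟨by norm_num⟩

theorem zpow_val_ne {i : ZMod 3} (hx : orderOf x = 3) (h : x ^ i.val = 1) : i = 0 := by
  have h1 := orderOf_dvd_of_pow_eq_one h
  rw [hx] at h1
  have h2 : i.val < 3 := ZMod.val_lt i
  have h3 : i.val = 0 := by omega
  exact (ZMod.val_eq_zero i).1 h3

/-- `C(x)` is the product of `⟨x⟩` and the image of `φ`. -/
theorem exists_of_comm [Finite G] (hx : orderOf x = 3) (ht : t * x * t⁻¹ = x⁻¹) (hφ : Function.Injective φ)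
    (hφx : ∀ σ, φ σ * x = x * φ σ) (hφt : ∀ σ, φ σ * t = t * φ σ)
    (hc : Nat.card (centralizer ({x} : Set G)) ≤ 360) {g : G} (hg : g * x = x * g) :
    ∃ (i : ZMod 3) (τ : S5), g = x ^ i.val * φ τ := by
  have hx3 : x ^ 3 = 1 := by rw [← hx]; exact pow_orderOf_eq_one x
  let f : ZMod 3 × S5 → centralizer ({x} : Set G) := fun a => ⟨x ^ a.1.val * φ a.2, by
    rw [mem_centralizer_singleton_iff, mul_assoc, hφx, ← mul_assoc, ← mul_assoc, ← pow_succ, ← pow_succ']⟩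
  have hf : Function.Injective f := by
    rintro ⟨i, τ⟩ ⟨j, ρ⟩ h
    have h1 : x ^ i.val * φ τ = x ^ j.val * φ ρ := congrArg Subtype.val h
    have h2 : φ (ρ * τ⁻¹) = (x ^ j.val)⁻¹ * x ^ i.val := by
      rw [map_mul, map_inv, eq_comm, ← mul_inv_eq_one]
      rw [show (x ^ j.val)⁻¹ * x ^ i.val * (φ ρ * (φ τ)⁻¹)⁻¹ = (x ^ j.val)⁻¹ * (x ^ i.val * φ τ) * (φ ρ)⁻¹ by group, h1]
      group
    have h3 : (x ^ j.val)⁻¹ = x ^ (2 * j.val) := by
      rw [inv_eq_iff_mul_eq_one, ← pow_add, show j.val + 2 * j.val = 3 * j.val by ring, pow_mul, hx3, one_pow]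
    rw [h3, ← pow_add] at h2
    have h4 : x ^ (2 * j.val + i.val) = 1 := by
      apply pow_eq_of_comm_inv hx ht
      rw [← h2]
      exact hφt _
    rw [h4] at h2
    have h5 : ρ * τ⁻¹ = 1 := hφ (by rw [h2, map_one])
    have h6 : ρ = τ := mul_inv_eq_one.1 h5
    subst h6
    have h7 : x ^ i.val = x ^ j.val := mul_right_cancel h1
    have h8 : i = j := by
      have h9 := pow_injOn_Iio_orderOf (x := x)
      have := h9 (show i.val ∈ Set.Iio (orderOf x) by rw [hx]; exact ZMod.val_lt i)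
        (show j.val ∈ Set.Iio (orderOf x) by rw [hx]; exact ZMod.val_lt j) h7
      exact ZMod.val_injective 3 this
    rw [h8]
  have hcard : Nat.card (ZMod 3 × S5) = 360 := by
    rw [Nat.card_prod, Nat.card_zmod, Nat.card_eq_fintype_card, Fintype.card_perm, Fintype.card_fin]
    rfl
  have hb : Function.Bijective f := hf.bijective_of_nat_card_le (by rw [hcard]; exact hc)
  obtain ⟨⟨i, τ⟩, h⟩ := hb.2 ⟨g, mem_centralizer_singleton_iff.2 hg⟩
  exact ⟨i, τ, (congrArg Subtype.val h).symm⟩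

theorem pow_forty (hx : orderOf x = 3) (hφx : ∀ σ, φ σ * x = x * φ σ) {σ : S5} (hσ : σ ^ 40 = 1) :
    (x * φ σ) ^ 40 = x := by
  have hx3 : x ^ 3 = 1 := by rw [← hx]; exact pow_orderOf_eq_one x
  have h1 : Commute x (φ σ) := (hφx σ).symm
  rw [h1.mul_pow, ← map_pow, hσ, map_one, mul_one, show 40 = 3 * 13 + 1 by norm_num, pow_add, pow_mul, hx3,
    one_pow, one_mul, pow_one]

/-- Fusion. -/
theorem fusion [Finite G] (hx : orderOf x = 3) (ht : t * x * t⁻¹ = x⁻¹) (hφ : Function.Injective φ)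
    (hφx : ∀ σ, φ σ * x = x * φ σ) (hφt : ∀ σ, φ σ * t = t * φ σ)
    (hc : Nat.card (centralizer ({x} : Set G)) ≤ 360) {σ σ' : S5} (hσ : σ ^ 40 = 1) (hσ' : σ' ^ 40 = 1) {g : G}
    (hg : g * (x * φ σ) * g⁻¹ = x * φ σ') :
    ∃ (i : ZMod 3) (τ : S5), g = x ^ i.val * φ τ ∧ τ * σ = σ' * τ := by
  have h1 : g * x * g⁻¹ = x := by
    have h2 := congrArg (fun z => z ^ 40) hg
    simp only [conj_pow] at h2
    rwa [pow_forty hx hφx hσ, pow_forty hx hφx hσ'] at h2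
  have h2 : g * x = x * g := by
    nth_rewrite 2 [← h1]
    group
  obtain ⟨i, τ, rfl⟩ := exists_of_comm hx ht hφ hφx hφt hc h2
  refine ⟨i, τ, rfl, hφ ?_⟩
  have h3 : ∀ ρ, x ^ i.val * φ ρ = φ ρ * x ^ i.val := fun ρ => (show Commute x (φ ρ) from (hφx ρ).symm).pow_left _
  have h4 : x ^ i.val * φ τ * (x * φ σ) = x * φ σ' * (x ^ i.val * φ τ) := by
    rw [← hg]; group
  have h5 : x ^ i.val * φ τ * (x * φ σ) = x ^ (i.val + 1) * (φ τ * φ σ) := by
    rw [pow_succ, mul_assoc, mul_assoc, ← mul_assoc (φ τ), hφx, mul_assoc]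
  have h6 : x * φ σ' * (x ^ i.val * φ τ) = x ^ (i.val + 1) * (φ σ' * φ τ) := by
    rw [mul_assoc, ← mul_assoc (φ σ'), ← h3, pow_succ', mul_assoc, mul_assoc]
  rw [h5, h6] at h4
  rw [map_mul, map_mul]
  exact mul_left_cancel h4

theorem not_isConj [Finite G] (hx : orderOf x = 3) (ht : t * x * t⁻¹ = x⁻¹) (hφ : Function.Injective φ)
    (hφx : ∀ σ, φ σ * x = x * φ σ) (hφt : ∀ σ, φ σ * t = t * φ σ)
    (hc : Nat.card (centralizer ({x} : Set G)) ≤ 360) {σ σ' : S5} (hσ : σ ^ 40 = 1) (hσ' : σ' ^ 40 = 1)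
    (hne : ∀ τ, τ * σ ≠ σ' * τ) : ¬ IsConj (x * φ σ) (x * φ σ') := by
  intro h
  obtain ⟨g, hg⟩ := isConj_iff.1 h
  obtain ⟨-, τ, -, h1⟩ := fusion hx ht hφ hφx hφt hc hσ hσ' hg
  exact hne τ h1

theorem card_cent [Finite G] (hx : orderOf x = 3) (ht : t * x * t⁻¹ = x⁻¹) (hφ : Function.Injective φ)
    (hφx : ∀ σ, φ σ * x = x * φ σ) (hφt : ∀ σ, φ σ * t = t * φ σ)
    (hc : Nat.card (centralizer ({x} : Set G)) ≤ 360) {σ : S5} (hσ : σ ^ 40 = 1) {m : ℕ}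
    (hm : Fintype.card {τ : S5 // τ * σ = σ * τ} = m) :
    Nat.card (centralizer ({x * φ σ} : Set G)) ≤ 3 * m := by
  have h3 : ∀ (i : ZMod 3) ρ, x ^ i.val * φ ρ = φ ρ * x ^ i.val := fun i ρ =>
    (show Commute x (φ ρ) from (hφx ρ).symm).pow_left _
  let f : ZMod 3 × {τ : S5 // τ * σ = σ * τ} → centralizer ({x * φ σ} : Set G) := fun a =>
    ⟨x ^ a.1.val * φ a.2, by
      rw [mem_centralizer_singleton_iff]
      have h5 : x ^ a.1.val * φ a.2 * (x * φ σ) = x ^ (a.1.val + 1) * (φ a.2 * φ σ) := by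
        rw [pow_succ, mul_assoc, mul_assoc, ← mul_assoc (φ _), hφx, mul_assoc]
      have h6 : x * φ σ * (x ^ a.1.val * φ a.2) = x ^ (a.1.val + 1) * (φ σ * φ a.2) := by
        rw [mul_assoc, ← mul_assoc (φ σ), ← h3, pow_succ', mul_assoc, mul_assoc]
      rw [h5, h6, ← map_mul, ← map_mul, a.2.2]⟩
  have hf : Function.Surjective f := by
    rintro ⟨g, hg⟩
    have hg' : g * (x * φ σ) = (x * φ σ) * g := mem_centralizer_singleton_iff.1 hg
    obtain ⟨i, τ, h1, h2⟩ := fusion hx ht hφ hφx hφt hc hσ hσ (g := g) (by rw [hg', mul_inv_cancel_right])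
    exact ⟨(i, ⟨τ, h2⟩), Subtype.ext h1.symm⟩
  have h4 := Nat.card_le_card_of_surjective f hf
  rwa [Nat.card_prod, Nat.card_zmod, Nat.card_eq_fintype_card (α := {τ : S5 // τ * σ = σ * τ}), hm] at h4

end struct

/-! ### The rows -/

section rows

variable {G : Type*} [Group G] [Finite G] {x t : G} {φ : S5 →* G}

omit [Finite G] in
/-- rationality -/
theorem rat_of_inv (hx : orderOf x = 3) (ht : t * x * t⁻¹ = x⁻¹) (hφt : ∀ σ, φ σ * t = t * φ σ)
    {χ : G → ℂ} (hχ : IsClassFunction G χ) (i : ZMod 3) (hi : i ≠ 0) (σ : S5) :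
    χ (x ^ i.val * φ σ) = χ (x * φ σ) := by
  have hx3 : x ^ 3 = 1 := by rw [← hx]; exact pow_orderOf_eq_one x
  have h1 : i = 1 ∨ i = 2 := by
    revert i
    decide
  rcases h1 with rfl | rfl
  · rw [ZMod.val_one, pow_one]
  · have h2 : (2 : ZMod 3).val = 2 := rfl
    have h3 : x ^ 2 = x⁻¹ := by rw [eq_inv_iff_mul_eq_one, ← pow_succ, hx3]
    rw [h2, h3, ← ht, ← hχ (x * φ σ) t]
    congr 1
    have h4 : t⁻¹ * φ σ = φ σ * t⁻¹ := by
      rw [eq_mul_inv_iff_mul_eq, mul_assoc, hφt, inv_mul_cancel_left]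
    rw [mul_assoc (t * x), h4]
    group

omit [Finite G] in
/-- class function -/
theorem conj_eq {χ : G → ℂ} (hχ : IsClassFunction G χ) (hφx : ∀ σ, φ σ * x = x * φ σ) {σ σ' : S5}
    (h : ∃ τ : S5, τ * σ = σ' * τ) : χ (x * φ σ') = χ (x * φ σ) := by
  obtain ⟨τ, hτ⟩ := h
  rw [← hχ (x * φ σ) (φ τ)]
  congr 1
  rw [eq_mul_inv_iff_mul_eq, mul_assoc, ← map_mul, ← hτ, map_mul, ← mul_assoc, ← mul_assoc, hφx]

/-- the linear characters of the dihedral group, complex -/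
noncomputable def muC (ε δ : ℤˣ) : DihedralGroup 4 →* ℂˣ := (Units.map (Int.castRingHom ℂ).toMonoidHom).comp (mu ε δ)

theorem muC_apply (ε δ : ℤˣ) (g : DihedralGroup 4) : ((muC ε δ g : ℂˣ) : ℂ) = ((mu ε δ g : ℤˣ) : ℤ) := rfl

/-- The integers from the dihedral group. -/
theorem int_dihedral (hx : orderOf x = 3) (ht : t * x * t⁻¹ = x⁻¹)
    (hφx : ∀ σ, φ σ * x = x * φ σ) (hφt : ∀ σ, φ σ * t = t * φ σ) (χ : IrrCharacter G) (ε δ : ℤˣ) :
    ∃ n : ℤ, (χ : G → ℂ) (x * φ 1) + (ε : ℤ) * (2 * (χ : G → ℂ) (x * φ R)) + (χ : G → ℂ) (x * φ (R ^ 2)) +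
      (δ : ℤ) * (2 * (χ : G → ℂ) (x * φ s)) + (δ : ℤ) * (ε : ℤ) * (2 * (χ : G → ℂ) (x * φ (R ^ 2))) = 8 * n := by
  have := fact3
  have hx3 : x ^ 3 = 1 := by rw [← hx]; exact pow_orderOf_eq_one x
  have hcl : IsClassFunction G (χ : G → ℂ) := isIrr_isClassFunction χ.2
  obtain ⟨n, hn⟩ := int_of_hom (p := 3) hx3 (φ.comp D8) (fun y => hφx _) (muC ε δ) (isIrr_isCharacter χ.2)
    (fun i hi y => rat_of_inv hx ht hφt hcl i hi _)
  refine ⟨n, ?_⟩
  have hcard : Fintype.card (DihedralGroup 4) = 8 := DihedralGroup.card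
  rw [hcard, sum_dihedral, inv_mul_eq_iff_eq_mul₀ (by norm_num)] at hn
  simp only [muC_apply, map_intCast, MonoidHom.comp_apply] at hn
  have e0 : D8 (.r 0) = 1 := by decide
  have e1 : D8 (.r 1) = R := by decide
  have e2 : D8 (.r 2) = R ^ 2 := by decide
  have f0 : D8 (.sr 0) = s := by decide
  have e3 : (χ : G → ℂ) (x * φ (D8 (.r 3))) = (χ : G → ℂ) (x * φ R) := conj_eq hcl hφx ⟨s, by decide⟩
  have f1 : (χ : G → ℂ) (x * φ (D8 (.sr 1))) = (χ : G → ℂ) (x * φ (R ^ 2)) := conj_eq hcl hφx ⟨swap 1 2, by decide⟩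
  have f2 : (χ : G → ℂ) (x * φ (D8 (.sr 2))) = (χ : G → ℂ) (x * φ s) := conj_eq hcl hφx ⟨R, by decide⟩
  have f3 : (χ : G → ℂ) (x * φ (D8 (.sr 3))) = (χ : G → ℂ) (x * φ (R ^ 2)) := conj_eq hcl hφx ⟨swap 2 3, by decide⟩
  obtain ⟨g0, g1, g2, g3, h0, h1, h2, h3⟩ := mu_vals ε δ
  rw [e3, f1, f2, f3, e0, e1, e2, f0, g0, g1, g2, g3, h0, h1, h2, h3] at hn
  push_cast at hn
  rw [← hn]
  ring

theorem c5_conj : ∀ i : ZMod 5, i ≠ 0 → ∃ τ : S5, τ * c5 = c5 ^ i.val * τ := by decide +kernel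

/-- The integer from the 5-cycle. -/
theorem int_five (hx : orderOf x = 3) (ht : t * x * t⁻¹ = x⁻¹)
    (hφx : ∀ σ, φ σ * x = x * φ σ) (hφt : ∀ σ, φ σ * t = t * φ σ) (χ : IrrCharacter G) :
    ∃ n : ℤ, (χ : G → ℂ) (x * φ 1) - (χ : G → ℂ) (x * φ c5) = 5 * n := by
  have := fact3
  have h5 : Fact (Nat.Prime 5) := ⟨by norm_num⟩
  have hx3 : x ^ 3 = 1 := by rw [← hx]; exact pow_orderOf_eq_one x
  have hcl : IsClassFunction G (χ : G → ℂ) := isIrr_isClassFunction χ.2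
  have hc5 : c5 ^ 5 = 1 := by decide
  obtain ⟨n, hn⟩ := int_of_hom (p := 3) hx3 (φ.comp (hom (p := 5) c5 hc5)) (fun y => hφx _) (lam (p := 5) 1)
    (isIrr_isCharacter χ.2) (fun i hi y => rat_of_inv hx ht hφt hcl i hi _)
  refine ⟨n, ?_⟩
  have hcard : Fintype.card (Multiplicative (ZMod 5)) = 5 := by simp
  rw [hcard, inv_mul_eq_iff_eq_mul₀ (by norm_num)] at hn
  have h1 : ∑ y : Multiplicative (ZMod 5), (χ : G → ℂ) (x * (φ.comp (hom (p := 5) c5 hc5)) y) *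
      conj ((lam (p := 5) 1 y : ℂˣ) : ℂ) =
      ∑ i : ZMod 5, (χ : G → ℂ) (x * φ (c5 ^ i.val)) * conj (ZMod.stdAddChar i : ℂ) := by
    refine (Fintype.sum_equiv Multiplicative.ofAdd _ _ fun i => ?_).symm
    rw [lam_apply, one_mul]
    rfl
  have h2 : ∀ i : ZMod 5, (χ : G → ℂ) (x * φ (c5 ^ i.val)) * conj (ZMod.stdAddChar i : ℂ) =
      (χ : G → ℂ) (x * φ c5) * conj (ZMod.stdAddChar i : ℂ) +
      if i = 0 then (χ : G → ℂ) (x * φ 1) - (χ : G → ℂ) (x * φ c5) else 0 := by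
    intro i
    split_ifs with hi
    · rw [hi, ZMod.val_zero, pow_zero, AddChar.map_zero_eq_one, map_one (starRingEnd ℂ)]
      ring
    · rw [conj_eq hcl hφx (σ := c5) (σ' := c5 ^ i.val) (c5_conj i hi), add_zero]
  rw [h1, Finset.sum_congr rfl fun i _ => h2 i, Finset.sum_add_distrib, ← Finset.mul_sum, ← map_sum] at hn
  have h3 := sum_stdAddChar (p := 5) 1
  simp only [one_mul] at h3
  rw [h3, if_neg one_ne_zero, map_zero, mul_zero, zero_add, Finset.sum_ite_eq' Finset.univ (0 : ZMod 5),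
    if_pos (Finset.mem_univ _)] at hn
  rw [hn]
  push_cast
  ring

/-- The row of a character. -/
theorem exists_row (hx : orderOf x = 3) (ht : t * x * t⁻¹ = x⁻¹)
    (hφx : ∀ σ, φ σ * x = x * φ σ) (hφt : ∀ σ, φ σ * t = t * φ σ) (χ : IrrCharacter G) :
    ∃ a b c d e : ℤ, (χ : G → ℂ) (x * φ 1) = (a + 4 * b + c + 4 * d + 6 * e : ℤ) ∧
      (χ : G → ℂ) (x * φ s) = (a - 2 * b - c + 2 * d : ℤ) ∧ (χ : G → ℂ) (x * φ (R ^ 2)) = (a + c - 2 * e : ℤ) ∧
      (χ : G → ℂ) (x * φ R) = (a - c : ℤ) ∧ (χ : G → ℂ) (x * φ c5) = (a - b + c - d + e : ℤ) := by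
  obtain ⟨n1, e1⟩ := int_dihedral hx ht hφx hφt χ 1 1
  obtain ⟨n2, e2⟩ := int_dihedral hx ht hφx hφt χ (-1) (-1)
  obtain ⟨n3, e3⟩ := int_dihedral hx ht hφx hφt χ (-1) 1
  obtain ⟨n4, e4⟩ := int_dihedral hx ht hφx hφt χ 1 (-1)
  obtain ⟨n5, e5⟩ := int_five hx ht hφx hφt χ
  push_cast at e1 e2 e3 e4
  refine ⟨n1 - n5 + n4, n5 - n3, n2 - n5 + n3, n5 - n4, n3 + n4 - n5, ?_, ?_, ?_, ?_, ?_⟩
  · push_cast
    linear_combination (1 / 8 : ℂ) * (e1 + e2 + 3 * e3 + 3 * e4)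
  · push_cast
    linear_combination (1 / 8 : ℂ) * (e1 - e2 + e3 - e4)
  · push_cast
    linear_combination (1 / 8 : ℂ) * (e1 + e2 - e3 - e4)
  · push_cast
    linear_combination (1 / 8 : ℂ) * (e1 - e2 - e3 + e4)
  · push_cast
    linear_combination (1 / 8 : ℂ) * (e1 + e2 + 3 * e3 + 3 * e4) - e5

theorem cards : Fintype.card {τ : S5 // τ * 1 = 1 * τ} = 120 ∧ Fintype.card {τ : S5 // τ * s = s * τ} = 12 ∧
    Fintype.card {τ : S5 // τ * R ^ 2 = R ^ 2 * τ} = 8 ∧ Fintype.card {τ : S5 // τ * R = R * τ} = 4 ∧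
    Fintype.card {τ : S5 // τ * c5 = c5 * τ} = 5 := by decide +kernel

theorem nconj : (∀ τ : S5, τ * 1 ≠ R ^ 2 * τ) ∧ (∀ τ : S5, τ * 1 ≠ c5 * τ) ∧ (∀ τ : S5, τ * R ^ 2 ≠ c5 * τ) := by
  decide +kernel

theorem pows : (1 : S5) ^ 40 = 1 ∧ s ^ 40 = 1 ∧ (R ^ 2) ^ 40 = 1 ∧ R ^ 40 = 1 ∧ c5 ^ 40 = 1 := by
  decide +kernel

/-- **A zero at `x`.** -/
theorem exists_zero (hx : orderOf x = 3) (ht : t * x * t⁻¹ = x⁻¹) (hφ : Function.Injective φ)
    (hφx : ∀ σ, φ σ * x = x * φ σ) (hφt : ∀ σ, φ σ * t = t * φ σ)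
    (hc : Nat.card (centralizer ({x} : Set G)) ≤ 360) (hk : 22 ≤ Nat.card (ConjClasses G)) :
    ∃ χ : IrrCharacter G, (χ : G → ℂ) x = 0 := by
  classical
  have := Fintype.ofFinite G
  have := finite_irr (G := G)
  have := Fintype.ofFinite (IrrCharacter G)
  obtain ⟨p1, p2, p3, p4, p5⟩ := pows
  obtain ⟨k1, k2, k3, k4, k5⟩ := cards
  obtain ⟨q1, q2, q3⟩ := nconj
  choose a b c d e h1 h2 h3 h4 h5 using exists_row hx ht hφx hφt (G := G)
  have orth : ∀ (σ σ' : S5) (V V' : IrrCharacter G → ℤ), (∀ χ : IrrCharacter G, (χ : G → ℂ) (x * φ σ) = V χ) →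
      (∀ χ : IrrCharacter G, (χ : G → ℂ) (x * φ σ') = V' χ) → ¬ IsConj (x * φ σ) (x * φ σ') →
      ∑ χ, V χ * V' χ = 0 := by
    intro σ σ' V V' hV hV' hn
    have h := Cfsg.Agent.S0145.sum_irr_mul_conj (x * φ σ) (x * φ σ')
    rw [if_neg hn] at h
    simp only [hV, hV', map_intCast] at h
    exact_mod_cast h
  have nrm : ∀ (σ : S5) (V : IrrCharacter G → ℤ), (∀ χ : IrrCharacter G, (χ : G → ℂ) (x * φ σ) = V χ) →
      ∑ χ, V χ * V χ = (Nat.card (centralizer ({x * φ σ} : Set G)) : ℤ) := by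
    intro σ V hV
    have h := Cfsg.Agent.S0145.sum_irr_mul_conj (x * φ σ) (x * φ σ)
    rw [if_pos (IsConj.refl _)] at h
    simp only [hV, map_intCast] at h
    exact_mod_cast h
  have n1 := nrm _ _ h1
  have n2 := nrm _ _ h2
  have n3 := nrm _ _ h3
  have n4 := nrm _ _ h4
  have n5 := nrm _ _ h5
  have o1 := orth _ _ _ _ h1 h3 (not_isConj hx ht hφ hφx hφt hc p1 p3 q1)
  have o2 := orth _ _ _ _ h1 h5 (not_isConj hx ht hφ hφx hφt hc p1 p5 q2)
  have o3 := orth _ _ _ _ h3 h5 (not_isConj hx ht hφ hφx hφt hc p3 p5 q3)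
  have c1 := card_cent hx ht hφ hφx hφt hc p1 k1
  have c2 := card_cent hx ht hφ hφx hφt hc p2 k2
  have c3 := card_cent hx ht hφ hφx hφt hc p3 k3
  have c4 := card_cent hx ht hφ hφx hφt hc p4 k4
  have c5' := card_cent hx ht hφ hφx hφt hc p5 k5
  set q : IrrCharacter G → ℤ := fun χ => a χ ^ 2 - a χ * b χ + b χ ^ 2 + (c χ ^ 2 - c χ * d χ + d χ ^ 2) + e χ ^ 2
    with hq
  have hsum : 800 * ∑ χ, q χ = 9 * (Nat.card (centralizer ({x * φ 1} : Set G)) : ℤ) +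
      100 * (Nat.card (centralizer ({x * φ s} : Set G)) : ℤ) +
      125 * (Nat.card (centralizer ({x * φ (R ^ 2)} : Set G)) : ℤ) +
      300 * (Nat.card (centralizer ({x * φ R} : Set G)) : ℤ) +
      224 * (Nat.card (centralizer ({x * φ c5} : Set G)) : ℤ) := by
    rw [← n1, ← n2, ← n3, ← n4, ← n5]
    have h6 : 800 * ∑ χ, q χ = 800 * ∑ χ, q χ + 10 * 0 - 8 * 0 + 40 * 0 := by ring
    have h7 : ∀ S1 S2 S3 S4 S5 : ℤ, 9 * S1 + 100 * S2 + 125 * S3 + 300 * S4 + 224 * S5 =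
        9 * S1 + 100 * S2 + 125 * S3 + 300 * S4 + 224 * S5 + 10 * 0 - 8 * 0 + 40 * 0 := by intros; ring
    rw [h7]
    nth_rewrite 1 [← o1]
    nth_rewrite 1 [← o2]
    nth_rewrite 1 [← o3]
    simp only [Finset.mul_sum, ← Finset.sum_add_distrib, ← Finset.sum_sub_distrib]
    refine Finset.sum_congr rfl fun χ _ => ?_
    simp only [hq]
    ring
  by_contra hcon
  push Not at hcon
  have hpos : ∀ χ, 1 ≤ q χ := by
    intro χ
    by_contra hlt
    apply hcon χ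
    have h6 : q χ ≤ 0 := by omega
    simp only [hq] at h6
    have z1 := sq_nonneg (2 * a χ - b χ)
    have z2 := sq_nonneg (2 * c χ - d χ)
    have z3 := sq_nonneg (b χ)
    have z4 := sq_nonneg (d χ)
    have z5 := sq_nonneg (e χ)
    have hb : b χ = 0 := by
      have : b χ ^ 2 ≤ 0 := by linarith
      exact pow_eq_zero_iff (two_ne_zero) |>.1 (le_antisymm this z3)
    have hd : d χ = 0 := by
      have : d χ ^ 2 ≤ 0 := by linarith
      exact pow_eq_zero_iff (two_ne_zero) |>.1 (le_antisymm this z4)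
    have he : e χ = 0 := by
      have : e χ ^ 2 ≤ 0 := by linarith
      exact pow_eq_zero_iff (two_ne_zero) |>.1 (le_antisymm this z5)
    rw [hb, hd, he] at h6
    have ha : a χ = 0 := by
      have : a χ ^ 2 ≤ 0 := by linarith [sq_nonneg (c χ)]
      exact pow_eq_zero_iff (two_ne_zero) |>.1 (le_antisymm this (sq_nonneg _))
    have hc' : c χ = 0 := by
      have : c χ ^ 2 ≤ 0 := by linarith [sq_nonneg (a χ)]
      exact pow_eq_zero_iff (two_ne_zero) |>.1 (le_antisymm this (sq_nonneg _))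
    have h7 := h1 χ
    rw [map_one, mul_one, ha, hb, hc', hd, he] at h7
    rw [h7]
    norm_num
  have h8 : (Fintype.card (IrrCharacter G) : ℤ) ≤ ∑ χ, q χ := by
    have := Finset.sum_le_sum fun χ (_ : χ ∈ (Finset.univ : Finset (IrrCharacter G))) => hpos χ
    simpa using this
  rw [← Nat.card_eq_fintype_card, card_irr] at h8
  have h9 : (22 : ℤ) ≤ (Nat.card (ConjClasses G) : ℤ) := by exact_mod_cast hk
  zify at c1 c2 c3 c4 c5'
  linarith

end rows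

end Cfsg.Agent.H393.Van.S5Row
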