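import Cfsg.Agent.H852.IMHSThree
import Cfsg.Agent.HN.AutBound
import Cfsg.Agent.H393.Van.S5Row
import Cfsg.Agent.H393.Van.HSClasses
import Cfsg.Agent.H620.PNorm

/-!
# `HS`: a character vanishing at the elements of order 3 (helper393)

`x` of order 3 in `HS`, `C(x) = ⟨x⟩ × S₅`, inverted by an involution centralizing the factor `S₅`.
-/

set_option autoImplicit false

namespace Cfsg.Agent.H393.Van.HSThree

open Cfsg Equiv Subgroup Cfsg.Agent.H393.Van Cfsg.Agent.H393.Van.S5Row
open Cfsg.Agent.SporadicA.PermTab Cfsg.Agent.HN.HS100 Cfsg.Agent.H852.IMHS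

/-- acts as a 5-cycle, order 5 -/
def ta6 : ℕ := 0x741180300b04006c318620140901f8600900e42f8410a40b42a800066060260580ae088200070a81141085602c0041700d04612425836026074148300940680c83e010184080320060b01504704e0480284e03e0dc1e00e06a0302e01505e140010090b40502c85b0760102882501e14c0b8430221781a02609a0a02781c07a0e0220310561740f042
/-- involution inverting `x` -/
def tt : ℕ := 0x200ec1281e094014188170a4158048010a81681b85703016c1300b07e0480004208e17c1384109604c0781b0741302401f09e0ac160060c410c120360aa0e0040030460502e81a01a01c0503d07c0a00702a09214430839066080088220801800b0190880c00e0530b80740603208c1381086308a0a4178150a00b42c83505c0f02f0020680102c04d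
/-- order 3 in the factor `S₅` -/
def ty : ℕ := 0x3a028308560be0001d0180b61081003e0081301180201e1480a80e04c0a01a060020128220570c61382e03900e0782a0580a21001e83c05a0b8248320660502c8050380c0218380a01740882c03e04c068460360301282703202031035002168238370480d82a8450a612c1f81a0240a81d81602e0bc0584f05208411009062018268480bc10415803
/-- moves `x` to `y` -/
def tg1 : ℕ := 0x760d42505a02c014230070201602c82403206c0105d02a0202783902e0302f05006c088138260600601502f0860340204208a0382583c0c60cc0f0610a20943100009c1480902c0880fc190090520b81585507c1201e8600260e01081a0ac1300e81c01617c1885406e0801185b0a615c0880a0501240083a03e0502382d0820180185c09a03c20034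
/-- moves `x` to `x y` -/
def tg2 : ℕ := 0x5a14c308040a00e02c81901c0a82e83f0800a02e04202c1341c85f0560f82505101e0d0240560101800c04608a1040f84e0b015c1783c0220400a80306a0340b852096178218000b6028238050260040d049004168030120460ec198370a813c0e8620180a4038310400702600b03c06c0482e0420f40a02406c0e8110630aa0941604406409c13030
/-- odd automorphism commuting with `x` -/
def tz0 : ℕ := 0xc6138308000aa1002e85c0301602885a0ae0042f8540a414c2c80d0441880f01b0080dc13816004028228420861100e85e0400ac038140240e8018380940d81a824066018188300160b00982e07c0a8070280920241283404613c1083f00a1342081c0980680c85b02e1200a83c05a0ec0881001e0a42800c05e1181300807a0c80f84b07211c2b060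
/-- vertices in the order of their rows -/
def qO : ℕ := 0x5e0502f83c0aa02c150010380802b04202e1441f80f042030220100b20cc2d8430461401e85c08a0601880701a0381481a0320d8238270a40a00d85d02c0ac190030121783080609415c240040c60e81705809c1180e84007c0902d04c03c180168110a60b00a83b0041502082509e1880502602412c0981f0920e41c0340000880280806e0c026835
/-- its inverse -/
def qR : ℕ := 0x560481881e0c20c81c04809a0842782805c1642f8160360ec2b04a02609c0082001c0bc0582d07a098238510981600a8240aa08c248600300a8050090060f80000809c0d4228020c60a40e81a06c1742083a0780400a0220960182985a01807c1285b0721001f8460ae0dc0c86201a03c0e0500a8108218520bc044198040880c00282c06805c2e007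

/-! ### The centralizer has order at most 360 -/

/-- `v` looks like `y` with respect to `F` and the fixed points of the table `P` -/
def pattX (n A P : ℕ) (F : List ℕ) (y v : ℕ) : Bool :=
  band (patt n A F y v) ((Nat.beq (lk P y) y) == (Nat.beq (lk P v) v))

/-- the chain for a group commuting with the permutation `P` -/
def chainX (n A P : ℕ) : List ℕ → List (ℕ × ℕ) → Bool
  | _, [] => true
  | F, (y, m) :: bs => band (Nat.blt y n) (band (notMemB y F)
      (band (cntB (pattX n A P F y) n m) (chainX n A P (lk P (lk P y) :: lk P y :: y :: F) bs)))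

/-- the points of the chain -/
def lastX (P : ℕ) : List ℕ → List (ℕ × ℕ) → List ℕ
  | F, [] => F
  | F, (y, _) :: bs => lastX P (lk P (lk P y) :: lk P y :: y :: F) bs

theorem chainX_cons (n A P : ℕ) (F : List ℕ) (y m : ℕ) (bs : List (ℕ × ℕ)) :
    chainX n A P F ((y, m) :: bs) = band (Nat.blt y n) (band (notMemB y F)
      (band (cntB (pattX n A P F y) n m) (chainX n A P (lk P (lk P y) :: lk P y :: y :: F) bs))) := rfl

theorem card_le_of_chainX {n A P : ℕ} {x : Perm (Fin n)} (hx : ∀ i : Fin n, (x i : ℕ) = lk P i)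
    (bs : List (ℕ × ℕ)) (F : List ℕ) (H : Subgroup (Perm (Fin n))) (hH : H ≤ autG n A)
    (hcom : ∀ g ∈ H, g * x = x * g) (hF : FixL H F) (hc : chainX n A P F bs = true)
    (hfin : ∀ g ∈ autG n A, (∀ f ∈ lastX P F bs, f < n ∧ ∀ i : Fin n, (i : ℕ) = f → g i = i) → g = 1) :
    Nat.card H ≤ prodC bs := by
  induction bs generalizing F H with
  | nil =>
    have : H = ⊥ := by
      rw [eq_bot_iff]
      intro g hg
      rw [Subgroup.mem_bot]
      exact hfin g (hH hg) (fun f hf => ⟨(hF f hf).1, (hF f hf).2 g hg⟩)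
    rw [this]
    simp [prodC]
  | cons b bs ih =>
    obtain ⟨y, m⟩ := b
    rw [chainX_cons, band_eq_true, band_eq_true, band_eq_true] at hc
    obtain ⟨h1, h2, h3, h4⟩ := hc
    have hy : y < n := Nat.blt_eq ▸ h1
    rw [notMemB_iff] at h2
    have hcx : ∀ g ∈ H, ∀ i : Fin n, g (x i) = x (g i) := fun g hg i =>
      congrArg (fun z : Perm (Fin n) => z i) (hcom g hg)
    have h5 : Nat.card (ps H ⟨y, hy⟩) ≤ prodC bs := by
      refine ih _ (ps H ⟨y, hy⟩) ((ps_le _ _).trans hH) (fun g hg => hcom g hg.1) ?_ h4 hfin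
      have e1 : lk P y = x ⟨y, hy⟩ := (hx ⟨y, hy⟩).symm
      have e2 : lk P (lk P y) = x (x ⟨y, hy⟩) := by rw [hx, ← e1]
      intro f hf
      rcases List.mem_cons.1 hf with h | hf
      · subst h
        rw [e2]
        refine ⟨(x (x ⟨y, hy⟩)).2, fun g hg i hi => ?_⟩
        have : i = x (x ⟨y, hy⟩) := Fin.ext hi
        rw [this, hcx g hg.1, hcx g hg.1, hg.2]
      rcases List.mem_cons.1 hf with h | hf
      · subst h
        rw [e1]
        refine ⟨(x ⟨y, hy⟩).2, fun g hg i hi => ?_⟩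
        have : i = x ⟨y, hy⟩ := Fin.ext hi
        rw [this, hcx g hg.1, hg.2]
      rcases List.mem_cons.1 hf with h | h
      · subst h
        refine ⟨hy, fun g hg i hi => ?_⟩
        have : i = ⟨f, hy⟩ := Fin.ext hi
        rw [this]; exact hg.2
      · exact ⟨(hF f h).1, fun g hg => (hF f h).2 g hg.1⟩
    refine card_le H ⟨y, hy⟩ _ ?_ (card_fin_of_cntB _ n m h3) h5
    intro g hg
    simp only [Finset.mem_filter, Finset.mem_univ, true_and]
    rw [pattX, band_eq_true]
    constructor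
    · rw [patt_iff]
      intro f hf
      obtain ⟨hfn, hfix⟩ := hF f hf
      have hgf : g ⟨f, hfn⟩ = ⟨f, hfn⟩ := hfix g hg ⟨f, hfn⟩ rfl
      constructor
      · have := hH hg ⟨y, hy⟩ ⟨f, hfn⟩
        rw [hgf] at this
        exact this
      · intro he
        have h6 : g ⟨y, hy⟩ = g ⟨f, hfn⟩ := by
          rw [hgf]; exact Fin.ext he
        have h7 := g.injective h6
        rw [Fin.mk.injEq] at h7
        exact h2 (h7 ▸ hf)
    · rw [beq_iff_eq, Bool.eq_iff_iff]
      have e1 : ∀ i : Fin n, Nat.beq (lk P i) i = true ↔ x i = i := fun i => by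
        rw [← hx i]
        exact ⟨fun h => Fin.ext (Nat.eq_of_beq_eq_true h), fun h => by rw [h]; exact Nat.beq_refl _⟩
      rw [e1 ⟨y, hy⟩, e1 (g ⟨y, hy⟩), ← hcx g hg]
      exact ⟨fun h => by rw [h], fun h => g.injective h⟩

/-- base -/
def bsX : List (ℕ × ℕ) := [(6, 10), (37, 4), (48, 3), (97, 1), (60, 1), (26, 1), (9, 3), (61, 1), (4, 1), (44, 1),
  (64, 2), (99, 1)]

theorem chainX_ok : chainX 100 adjA t3 [] bsX = true := by decide +kernel
theorem distX_ok : chkDist 100 adjA (maskL (lastX t3 [] bsX)) qR qO = true := by decide +kernel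

/-- word -/
def wz : List ℕ := [tY, tW, tYi, tWi, tY, tW, tYi, tWi]

theorem wz_com : allB (fun i => Nat.beq (lk tZ (ev wz (lk t3 i))) (lk t3 (lk tZ (ev wz i)))) 100 = true := by
  decide +kernel

theorem card_le_360 {x : Q} (hx : ∀ i : Fin 100, ((x : Perm (Fin 100)) i : ℕ) = lk t3 i) :
    Nat.card (centralizer ({x} : Set Q)) ≤ 360 := by
  set H : Subgroup (Perm (Fin 100)) := (centralizer ({x} : Set Q)).map Q.subtype with hH
  have h1 : Nat.card (centralizer ({x} : Set Q)) = Nat.card H :=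
    Nat.card_congr ((centralizer ({x} : Set Q)).equivMapOfInjective _ Q.subtype_injective).toEquiv
  set A : Subgroup (Perm (Fin 100)) := autG 100 adjA ⊓ centralizer ({(x : Perm (Fin 100))} : Set (Perm (Fin 100)))
    with hA
  have hHA : H ≤ A := by
    rintro _ ⟨g, hg, rfl⟩
    exact ⟨Q_le g.2, mem_centralizer_singleton_iff.2 (congrArg Subtype.val (mem_centralizer_singleton_iff.1 hg))⟩
  have hAc : Nat.card A ≤ 720 := by
    have h2 := card_le_of_chainX (x := (x : Perm (Fin 100))) hx bsX [] A inf_le_left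
      (fun g hg => mem_centralizer_singleton_iff.1 hg.2) (fun _ hf => absurd hf List.not_mem_nil) chainX_ok
      (fun g hg h => eq_one_of_dist distX_ok g hg h)
    have h3 : prodC bsX = 720 := by decide +kernel
    rwa [h3] at h2
  obtain ⟨k, hkQ, hk⟩ := exists_ev wz (G := Q) (fun P hP => mem5 P (by
    unfold wz at hP
    simp only [List.mem_cons, List.not_mem_nil, or_false] at hP ⊢
    tauto))
  have h4 : Z * k ∈ A := by
    refine ⟨mul_mem HN.AutBound.Z_mem (Q_le hkQ), mem_centralizer_singleton_iff.2 ?_⟩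
    refine Equiv.ext fun i => Fin.ext ?_
    show lk tZ (k ((x : Perm (Fin 100)) i)) = (((x : Perm (Fin 100)) (Z (k i)) : Fin 100) : ℕ)
    rw [hk, hx, hx]
    show _ = lk t3 (lk tZ (k i))
    rw [hk]
    exact Nat.eq_of_beq_eq_true ((allB_iff _ _).1 wz_com i i.2)
  have h5 := two_mul_card_le hHA (fun g hg => by
    obtain ⟨a, -, rfl⟩ := hg
    exact HN.AutBound.sign_Q a.2) h4 (by rw [map_mul, sign_Z, HN.AutBound.sign_Q hkQ, mul_one])
  omega

/-! ### The factor `S₅` -/

theorem ina6 : InG Q ta6 := word_of (L := [ta, ta, ta, ta, ta, ta]) (mem2 ina inb) (by simp) (by decide +kernel)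

theorem intt : InG Q tt := word_of (L := [tW, tW, tY, tY, tY, tWi, tWi, ta, ta, tb, ta, ta, ta])
  (L0 := [tX, tY, tW, tYi, tWi, ta, tb]) (by
    intro P hP
    simp only [List.mem_cons, List.not_mem_nil, or_false] at hP
    rcases hP with rfl | rfl | rfl | rfl | rfl | rfl | rfl
    exacts [inX, inY, inW, inYi, inWi, ina, inb])
  (by intro P; simp only [List.mem_cons, List.not_mem_nil, or_false]; tauto) (by decide +kernel)

theorem inty : InG Q ty := word_of (L := [ta6, ta6, ta6, tb, ta6, tb]) (mem2 ina6 inb)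
  (by intro P; simp only [List.mem_cons, List.not_mem_nil, or_false]; tauto) (by decide +kernel)

theorem intg1 : InG Q tg1 := word_of (L := [tY, tY, tX, tW, tW, tY, tW, tX, tY, tW]) mem5
  (by intro P; simp only [List.mem_cons, List.not_mem_nil, or_false]; tauto) (by decide +kernel)

theorem intg2 : InG Q tg2 := word_of (L := [tY, tY, tW, tW, tW, tY, tW, tYi]) mem5
  (by intro P; simp only [List.mem_cons, List.not_mem_nil, or_false]; tauto) (by decide +kernel)

/-- The data of the main lemma. -/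
theorem exists_data : ∃ (x t y : Q) (φ : S5 →* Q), orderOf x = 3 ∧ t * x * t⁻¹ = x⁻¹ ∧ Function.Injective φ ∧
    (∀ σ, φ σ * x = x * φ σ) ∧ (∀ σ, φ σ * t = t * φ σ) ∧ Nat.card (centralizer ({x} : Set Q)) ≤ 360 ∧
    orderOf y = 3 ∧ (∃ ρ, φ ρ = y) ∧ IsConj x y ∧ IsConj x (x * y) := by
  have h3f : Fact (Nat.Prime 3) := ⟨by norm_num⟩
  obtain ⟨x, hx⟩ := exists_el in3'
  obtain ⟨a, ha⟩ := exists_el ina6
  obtain ⟨b, hb⟩ := exists_el inb
  obtain ⟨t, ht⟩ := exists_el intt
  obtain ⟨y, hy⟩ := exists_el inty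
  obtain ⟨g1, hg1⟩ := exists_el intg1
  obtain ⟨g2, hg2⟩ := exists_el intg2
  have hxo : orderOf x = 3 := orderOf_of hx (by decide +kernel) 0 (by decide +kernel)
  have hyo : orderOf y = 3 := orderOf_of hy (by decide +kernel) 0 (by decide +kernel)
  have hax : a * x = x * a := commute_of ha hx (by decide +kernel)
  have hbx : b * x = x * b := commute_of hb hx (by decide +kernel)
  have hat : a * t = t * a := commute_of ha ht (by decide +kernel)
  have hbt : b * t = t * b := commute_of hb ht (by decide +kernel)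
  have hyx : y * x = x * y := commute_of hy hx (by decide +kernel)
  have hyt : y * t = t * y := commute_of hy ht (by decide +kernel)
  have eqv : ∀ {g k : Q} {L M : List ℕ}, (∀ i : Fin 100, ((g : Perm (Fin 100)) i : ℕ) = ev L i) →
      (∀ i : Fin 100, ((k : Perm (Fin 100)) i : ℕ) = ev M i) → allB (fun i => Nat.beq (ev L i) (ev M i)) 100 = true →
      g = k := by
    intro g k L M hg hk h
    apply Subtype.ext
    refine Equiv.ext fun i => Fin.ext ?_
    rw [hg, hk]
    exact Nat.eq_of_beq_eq_true ((allB_iff _ _).1 h i i.2)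
  have hmul : ∀ {g k : Q} {P R : ℕ}, (∀ i : Fin 100, ((g : Perm (Fin 100)) i : ℕ) = lk P i) →
      (∀ i : Fin 100, ((k : Perm (Fin 100)) i : ℕ) = lk R i) → ∀ i : Fin 100, (((g * k : Q) : Perm (Fin 100)) i : ℕ) = ev [R, P] i := by
    intro g k P R hg hk i
    show ((g : Perm (Fin 100)) ((k : Perm (Fin 100)) i) : ℕ) = lk P (lk R i)
    rw [hg, hk]
  have hmul3 : ∀ {g k l : Q} {P R S : ℕ}, (∀ i : Fin 100, ((g : Perm (Fin 100)) i : ℕ) = lk P i) →
      (∀ i : Fin 100, ((k : Perm (Fin 100)) i : ℕ) = lk R i) → (∀ i : Fin 100, ((l : Perm (Fin 100)) i : ℕ) = lk S i) →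
      ∀ i : Fin 100, (((g * k * l : Q) : Perm (Fin 100)) i : ℕ) = ev [S, R, P] i := by
    intro g k l P R S hg hk hl i
    show ((g : Perm (Fin 100)) ((k : Perm (Fin 100)) ((l : Perm (Fin 100)) i)) : ℕ) = lk P (lk R (lk S i))
    rw [hg, hk, hl]
  have htx : t * x * t⁻¹ = x⁻¹ := by
    rw [eq_inv_iff_mul_eq_one]
    have h1 : t * x = x * x * t := eqv (hmul ht hx) (hmul3 hx hx ht) (by decide +kernel)
    rw [h1, mul_inv_cancel_right, ← pow_two, ← pow_succ]
    have h2 := pow_orderOf_eq_one x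
    rwa [hxo] at h2
  have hxy : IsConj x y := isConj_iff.2 ⟨g1, by
    rw [mul_inv_eq_iff_eq_mul]
    exact eqv (hmul hg1 hx) (hmul hy hg1) (by decide +kernel)⟩
  have hxxy : IsConj x (x * y) := isConj_iff.2 ⟨g2, by
    rw [mul_inv_eq_iff_eq_mul]
    exact eqv (hmul hg2 hx) (hmul3 hx hy hg2) (by decide +kernel)⟩
  -- the action on five pairs
  let _ := act5 hx
  let a' : centralizer ({x} : Set Q) := ⟨a, mem_centralizer_singleton_iff.2 hax⟩
  let b' : centralizer ({x} : Set Q) := ⟨b, mem_centralizer_singleton_iff.2 hbx⟩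
  let x' : centralizer ({x} : Set Q) := ⟨x, mem_centralizer_singleton_iff.2 rfl⟩
  let y' : centralizer ({x} : Set Q) := ⟨y, mem_centralizer_singleton_iff.2 hyx⟩
  set ψ := MulAction.toPermHom (centralizer ({x} : Set Q)) (Fin 5) with hψ
  have hlab : ∀ {P : ℕ} {g : Q}, (∀ i : Fin 100, ((g : Perm (Fin 100)) i : ℕ) = lk P i) → ∀ t : Fin 5,
      (labF ((g : Perm (Fin 100)) (rep t)) : ℕ) = lk tlab (lk P (rep t)) % 5 := by
    intro P g hg t
    show lk tlab ((g : Perm (Fin 100)) (rep t) : Fin 100) % 5 = _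
    rw [hg]
  have h1 : ψ a' = finRotate 5 := by
    refine Equiv.ext fun t => Fin.ext ?_
    show (labF ((a : Perm (Fin 100)) (rep t)) : ℕ) = _
    rw [hlab ha]
    revert t
    decide +kernel
  have h2 : ψ b' = swap 3 4 := by
    refine Equiv.ext fun t => Fin.ext ?_
    show (labF ((b : Perm (Fin 100)) (rep t)) : ℕ) = _
    rw [hlab hb]
    revert t
    decide +kernel
  have h3 : ψ x' = 1 := by
    refine Equiv.ext fun t => Fin.ext ?_
    show (labF ((x : Perm (Fin 100)) (rep t)) : ℕ) = _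
    rw [hlab hx]
    revert t
    decide +kernel
  -- the subgroup
  let H : Subgroup (centralizer ({x} : Set Q)) := (centralizer ({t} : Set Q)).subgroupOf _
  have haH : a' ∈ H := mem_subgroupOf.2 (mem_centralizer_singleton_iff.2 hat)
  have hbH : b' ∈ H := mem_subgroupOf.2 (mem_centralizer_singleton_iff.2 hbt)
  have hyH : y' ∈ H := mem_subgroupOf.2 (mem_centralizer_singleton_iff.2 hyt)
  have hsurj : Function.Surjective (ψ.comp H.subtype) := by
    rw [← MonoidHom.range_eq_top, eq_top_iff, ← Equiv.Perm.closure_prime_cycle_swap (σ := finRotate 5)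
      (τ := swap 3 4) (by simp; norm_num) isCycle_finRotate support_finRotate ⟨3, 4, by decide, rfl⟩,
      closure_le]
    rintro g (rfl | hg)
    · exact ⟨⟨a', haH⟩, h1⟩
    · rw [Set.mem_singleton_iff] at hg
      rw [hg]
      exact ⟨⟨b', hbH⟩, h2⟩
  have hsurj' : Function.Surjective ψ := fun σ => by
    obtain ⟨h, hh⟩ := hsurj σ
    exact ⟨h, hh⟩
  have hle := card_le_360 hx
  have hker : ψ.ker = zpowers x' := by
    have e1 : zpowers x' ≤ ψ.ker := by rw [zpowers_le]; exact h3
    symm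
    apply Subgroup.eq_of_le_of_card_ge e1
    have e2 : Nat.card (zpowers x') = 3 := by rw [Nat.card_zpowers, ← Subgroup.orderOf_coe]; exact hxo
    have e3 := ψ.ker.card_mul_index
    rw [Subgroup.index_ker, MonoidHom.range_eq_top.2 hsurj', Subgroup.card_top, Nat.card_eq_fintype_card (α := Perm (Fin 5)),
      Fintype.card_perm, Fintype.card_fin] at e3
    have e4 : (Nat.factorial 5) = 120 := rfl
    rw [e4] at e3
    rw [e2]
    omega
  have hinj : Function.Injective (ψ.comp H.subtype) := by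
    rw [injective_iff_map_eq_one]
    rintro ⟨h, hh⟩ h0
    have e1 : h ∈ ψ.ker := h0
    rw [hker] at e1
    obtain ⟨k, hk⟩ := mem_powers_iff_mem_zpowers.2 e1
    have hk' : x' ^ k = h := hk
    have e2 : x ^ k = 1 := by
      apply pow_eq_of_comm_inv hxo htx
      have e3 : ((h : centralizer ({x} : Set Q)) : Q) * t = t * h :=
        mem_centralizer_singleton_iff.1 (mem_subgroupOf.1 hh)
      rw [← hk'] at e3
      exact e3
    apply Subtype.ext
    show h = 1
    rw [← hk']
    apply Subtype.ext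
    exact e2
  let e := MulEquiv.ofBijective (ψ.comp H.subtype) ⟨hinj, hsurj⟩
  let φ : S5 →* Q := (centralizer ({x} : Set Q)).subtype.comp (H.subtype.comp e.symm.toMonoidHom)
  refine ⟨x, t, y, φ, hxo, htx, ?_, ?_, ?_, hle, hyo, ?_, hxy, hxxy⟩
  · intro σ τ h
    exact e.symm.injective (Subtype.ext (Subtype.ext h))
  · intro σ
    exact mem_centralizer_singleton_iff.1 ((e.symm σ : H) : centralizer ({x} : Set Q)).2
  · intro σ
    exact mem_centralizer_singleton_iff.1 (mem_subgroupOf.1 (e.symm σ : H).2)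
  · refine ⟨e ⟨y', hyH⟩, ?_⟩
    show (((e.symm (e ⟨y', hyH⟩) : H) : centralizer ({x} : Set Q)) : Q) = y
    rw [e.symm_apply_apply]

/-! ### All elements of order 3 are conjugate -/

theorem h012 : ∀ i : ZMod 3, i = 0 ∨ i = 1 ∨ i = 2 := by decide

theorem conj_all {G : Type*} [Group G] [Finite G] (hG : (Nat.card G).factorization 3 = 2) {x t y : G} {φ : S5 →* G}
    (hx : orderOf x = 3) (ht : t * x * t⁻¹ = x⁻¹) (hφx : ∀ σ, φ σ * x = x * φ σ) (hφt : ∀ σ, φ σ * t = t * φ σ)
    (hy : orderOf y = 3) {ρ : S5} (hρ : φ ρ = y) (hφ : Function.Injective φ) (h1 : IsConj x y) (h2 : IsConj x (x * y)) {z : G}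
    (hz : orderOf z = 3) : IsConj x z := by
  have h3f : Fact (Nat.Prime 3) := ⟨by norm_num⟩
  have hx3 : x ^ 3 = 1 := by rw [← hx]; exact pow_orderOf_eq_one x
  have hy3 : y ^ 3 = 1 := by rw [← hy]; exact pow_orderOf_eq_one y
  have hyx : y * x = x * y := by rw [← hρ]; exact hφx ρ
  have hyt : y * t = t * y := by rw [← hρ]; exact hφt ρ
  have hxinv : IsConj x x⁻¹ := isConj_iff.2 ⟨t, ht⟩
  have hinv : ∀ {a b : G}, IsConj a b → IsConj a⁻¹ b⁻¹ := by
    intro a b h
    obtain ⟨c, rfl⟩ := isConj_iff.1 h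
    exact isConj_iff.2 ⟨c, by group⟩
  -- `y` is inverted in the factor
  have hρo : orderOf ρ = 3 := by rw [← hy, ← hρ, orderOf_injective φ hφ]
  obtain ⟨τ, hτ⟩ : ∃ τ : S5, τ * ρ * τ⁻¹ = ρ⁻¹ := by
    have h5 : ∀ ρ : S5, ρ ^ 3 = 1 → ∃ τ : S5, τ * ρ * τ⁻¹ = ρ⁻¹ := by decide +kernel
    exact h5 ρ (by rw [← hρo]; exact pow_orderOf_eq_one ρ)
  have h4 : IsConj (x * y) (x * y⁻¹) := by
    refine isConj_iff.2 ⟨φ τ, ?_⟩
    have h6 : φ τ * y * (φ τ)⁻¹ = y⁻¹ := by rw [← hρ, ← map_inv, ← map_mul, ← map_mul, hτ, map_inv]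
    rw [← h6, show φ τ * (x * y) * (φ τ)⁻¹ = (φ τ * x) * y * (φ τ)⁻¹ by group, hφx]
    group
  -- the eight elements
  have key : ∀ i j : ZMod 3, x ^ i.val * y ^ j.val ≠ 1 → IsConj x (x ^ i.val * y ^ j.val) := by
    have hx2 : x ^ 2 = x⁻¹ := by rw [eq_inv_iff_mul_eq_one, ← pow_succ, hx3]
    have hy2 : y ^ 2 = y⁻¹ := by rw [eq_inv_iff_mul_eq_one, ← pow_succ, hy3]
    have hcomm : ∀ a b : G, a * b = b * a → a⁻¹ * b⁻¹ = (a * b)⁻¹ := by
      intro a b h
      rw [h, mul_inv_rev]
    have hcc : IsConj x⁻¹ y⁻¹ := hinv h1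
    intro i j hne
    have v0 : (0 : ZMod 3).val = 0 := rfl
    have v1 : (1 : ZMod 3).val = 1 := rfl
    have v2 : (2 : ZMod 3).val = 2 := rfl
    have hi := h012 i
    have hj := h012 j
    rcases hi with rfl | rfl | rfl <;> rcases hj with rfl | rfl | rfl <;>
      simp only [v0, v1, v2, pow_zero, pow_one, one_mul, mul_one, hx2, hy2] at hne ⊢
    · exact absurd rfl hne
    · exact h1
    · exact hxinv.trans hcc
    · exact IsConj.refl x
    · exact h2
    · exact h2.trans h4
    · exact hxinv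
    · have h7 : x⁻¹ * y = (x * y⁻¹)⁻¹ := by
        rw [← hcomm x y⁻¹ (by rw [mul_inv_eq_iff_eq_mul, mul_assoc, ← hyx, inv_mul_cancel_left]), inv_inv]
      rw [h7]
      exact hxinv.trans (hinv (h2.trans h4))
    · rw [hcomm x y hyx.symm]
      exact hxinv.trans (hinv h2)
  -- the Sylow subgroup
  let f := pairHom (p := 3) x hx3 (H713.Count.hom (p := 3) y hy3) (fun i => by
    show y ^ _ * x = x * y ^ _
    exact (Commute.pow_left (show Commute y x from hyx) _))
  have hf : ∀ i j : ZMod 3, f (Multiplicative.ofAdd i, Multiplicative.ofAdd j) = x ^ i.val * y ^ j.val := fun i j => rfl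
  have hinj : Function.Injective f := by
    rw [injective_iff_map_eq_one]
    rintro ⟨i, j⟩ h0
    have h5 : x ^ (Multiplicative.toAdd i).val * y ^ (Multiplicative.toAdd j).val = 1 := h0
    have h6 : y ^ (Multiplicative.toAdd j).val * t = t * y ^ (Multiplicative.toAdd j).val :=
      Commute.pow_left (show Commute y t from hyt) _
    have h7 : x ^ (Multiplicative.toAdd i).val = 1 := by
      apply pow_eq_of_comm_inv hx ht
      rw [mul_eq_one_iff_eq_inv.1 h5, inv_mul_eq_iff_eq_mul, ← mul_assoc, h6, mul_inv_cancel_right]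
    have h8 : Multiplicative.toAdd i = 0 := zpow_val_ne hx h7
    rw [h7, one_mul] at h5
    have h9 : Multiplicative.toAdd j = 0 := zpow_val_ne hy h5
    exact Prod.ext h8 h9
  have hcard : Nat.card f.range = 9 := by
    rw [← Nat.card_congr (MonoidHom.ofInjective hinj).toEquiv, Nat.card_prod]
    simp
  have hP : IsPGroup 3 f.range := IsPGroup.of_card (n := 2) (by rw [hcard]; norm_num)
  obtain ⟨S, hS⟩ := hP.exists_le_sylow
  have hSeq : (S : Subgroup G) = f.range := by
    symm
    apply Subgroup.eq_of_le_of_card_ge hS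
    rw [S.card_eq_multiplicity, hG, hcard]
    norm_num
  have hz' : IsPGroup 3 (zpowers z) := IsPGroup.of_card (n := 1) (by rw [Nat.card_zpowers, hz, pow_one])
  obtain ⟨S', hS'⟩ := hz'.exists_le_sylow
  obtain ⟨g, hg⟩ := MulAction.exists_smul_eq G S' S
  have hzS : g * z * g⁻¹ ∈ (S : Subgroup G) := by
    rw [← hg]
    exact ⟨z, hS' (mem_zpowers z), rfl⟩
  rw [hSeq] at hzS
  obtain ⟨⟨i, j⟩, hij⟩ := hzS
  have h5 : x ^ (Multiplicative.toAdd i).val * y ^ (Multiplicative.toAdd j).val = g * z * g⁻¹ := hij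
  have h6 : IsConj z (g * z * g⁻¹) := isConj_iff.2 ⟨g, rfl⟩
  refine IsConj.trans ?_ h6.symm
  rw [← h5]
  apply key
  rw [h5]
  intro h7
  have h8 : z = 1 := by
    rw [mul_inv_eq_one] at h7
    exact mul_eq_left.1 h7
  rw [h8, orderOf_one] at hz
  norm_num at hz

/-- **`HS` and `p = 3`.** -/
theorem vOrdP_Q : H620.PNorm.VOrdP 3 Q := by
  obtain ⟨x, t, y, φ, hx, ht, hφ, hφx, hφt, hc, hy, ⟨ρ, hρ⟩, h1, h2⟩ := exists_data
  obtain ⟨χ, hχ⟩ := exists_zero hx ht hφ hφx hφt hc HSClasses.classes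
  refine ⟨x, hx, χ, fun α => ?_⟩
  have hG : (Nat.card Q).factorization 3 = 2 := by
    rw [HSClasses.card_Q', show (44352000 : ℕ) = 3 ^ 2 * 4928000 by norm_num,
      Nat.factorization_mul (by norm_num) (by norm_num), Nat.factorization_pow]
    simp [Nat.Prime.factorization_self Nat.prime_three, Nat.factorization_eq_zero_of_not_dvd]
  have h3 := conj_all hG hx ht hφx hφt hy hρ hφ h1 h2 (z := α x) (by rw [MulEquiv.orderOf_eq, hx])
  obtain ⟨c, hc'⟩ := isConj_iff.1 h3
  rw [← hc', Cfsg.Agent.Characters.Core.isIrr_isClassFunction χ.2 x c, hχ]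

theorem hs_3 {K : Type*} [Group K] (h : Spor.IsoHS K) : H620.PNorm.VOrdP 3 K := by
  obtain ⟨e⟩ := h
  obtain ⟨⟨f⟩, -⟩ := Cfsg.Agent.HN.AutHS.nonempty_Q
  exact vOrdP_Q.mulEquiv (f.trans e.symm)

end Cfsg.Agent.H393.Van.HSThree
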