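import Cfsg.Agent.H713.Count

/-!
# Integrality of inner products of the function `y ↦ χ (x * f y)` (helper393)

`x` an element of prime order `p`, `f : F →* G` a homomorphism whose image centralizes `x`, `μ` a linear
character of `F`.  If `χ (x ^ i * f y) = χ (x * f y)` for `i ≠ 0` then `1 / #F * ∑ χ (x * f y) * conj (μ y)` is
an integer.
-/

set_option autoImplicit false

namespace Cfsg.Agent.H393.Van

open Cfsg Cfsg.Agent.Characters.Core Cfsg.Agent.Characters.Linear Cfsg.Agent.H713.Count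
open scoped ComplexConjugate

variable {G : Type*} [Group G] {p : ℕ} [hp : Fact p.Prime] {F : Type} [Group F] [Fintype F]

/-- The homomorphism `(i, y) ↦ x ^ i * f y`. -/
noncomputable def pairHom (x : G) (hx : x ^ p = 1) (f : F →* G) (hc : ∀ y, f y * x = x * f y) :
    Multiplicative (ZMod p) × F →* G where
  toFun a := x ^ (Multiplicative.toAdd a.1).val * f a.2
  map_one' := by simp
  map_mul' a b := by
    have h1 : Commute (f a.2) (x ^ (Multiplicative.toAdd b.1).val) := (show Commute (f a.2) x from hc _).pow_right _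
    rw [Prod.fst_mul, Prod.snd_mul, toAdd_mul, ← pow_val_add hx, map_mul, mul_assoc, mul_assoc,
      ← mul_assoc (f a.2), h1.eq, mul_assoc]

/-- The character `lam k × μ`. -/
noncomputable def pairChar (k : ZMod p) (μ : F →* ℂˣ) : Multiplicative (ZMod p) × F →* ℂˣ :=
  (lam k).coprod μ

theorem mlt_pair_isNat [Finite G] {x : G} (hx : x ^ p = 1) (f : F →* G) (hc : ∀ y, f y * x = x * f y)
    (μ : F →* ℂˣ) {χ : G → ℂ} (hχ : IsCharacter G χ) (k : ZMod p) :
    ∃ n : ℕ, ((p : ℂ) * Fintype.card F)⁻¹ * ∑ i : ZMod p, conj (ZMod.stdAddChar (k * i)) *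
      ∑ y : F, χ (x ^ i.val * f y) * conj ((μ y : ℂˣ) : ℂ) = n := by
  have h1 := isCharacter_comp (pairHom x hx f hc) hχ
  obtain ⟨n, hn⟩ := classInner_isNat h1 (isCharacter_hom (pairChar (p := p) k μ))
  refine ⟨n, ?_⟩
  rw [← hn, Cfsg.Agent.Characters.Core.classInner_def, Nat.card_eq_fintype_card, Fintype.card_prod]
  congr 1
  · simp [ZMod.card]
  · rw [Fintype.sum_prod_type]
    refine Fintype.sum_equiv Multiplicative.ofAdd _ _ fun i => ?_
    rw [Finset.mul_sum]
    refine Finset.sum_congr rfl fun y _ => ?_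
    have h2 : ((pairChar (p := p) k μ (Multiplicative.ofAdd i, y) : ℂˣ) : ℂ) =
        ZMod.stdAddChar (k * i) * (μ y : ℂ) := by
      show (((lam k (Multiplicative.ofAdd i)) * μ y : ℂˣ) : ℂ) = _
      rw [Units.val_mul, lam_apply]
    have h3 : (χ ∘ pairHom x hx f hc) (Multiplicative.ofAdd i, y) = χ (x ^ i.val * f y) := rfl
    have h4 : conj (ZMod.stdAddChar (k * i) * (μ y : ℂ) : ℂ) = conj (ZMod.stdAddChar (k * i) : ℂ) * conj (μ y : ℂ) :=
      RingHom.map_mul _ _ _
    rw [h2, h3, h4]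
    ring

/-- **Integrality.** -/
theorem int_of_hom [Finite G] {x : G} (hx : x ^ p = 1) (f : F →* G) (hc : ∀ y, f y * x = x * f y)
    (μ : F →* ℂˣ) {χ : G → ℂ} (hχ : IsCharacter G χ)
    (hrat : ∀ i : ZMod p, i ≠ 0 → ∀ y, χ (x ^ i.val * f y) = χ (x * f y)) :
    ∃ n : ℤ, (Fintype.card F : ℂ)⁻¹ * ∑ y : F, χ (x * f y) * conj ((μ y : ℂˣ) : ℂ) = n := by
  classical
  obtain ⟨m0, hm0⟩ := mlt_pair_isNat hx f hc μ hχ 0
  obtain ⟨m1, hm1⟩ := mlt_pair_isNat hx f hc μ hχ 1
  refine ⟨m0 - m1, ?_⟩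
  set S0 : ℂ := ∑ y : F, χ (x ^ (0 : ZMod p).val * f y) * conj ((μ y : ℂˣ) : ℂ) with hS0
  set S1 : ℂ := ∑ y : F, χ (x * f y) * conj ((μ y : ℂˣ) : ℂ) with hS1
  have hp0 : (p : ℂ) ≠ 0 := by exact_mod_cast hp.out.ne_zero
  have hF0 : (Fintype.card F : ℂ) ≠ 0 := by exact_mod_cast Fintype.card_ne_zero
  have hS : ∀ i : ZMod p, ∑ y : F, χ (x ^ i.val * f y) * conj ((μ y : ℂˣ) : ℂ) = S1 + if i = 0 then S0 - S1 else 0 := by
    intro i
    split_ifs with hi
    · rw [hi]
      simp [hS0]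
    · rw [add_zero, hS1]
      exact Finset.sum_congr rfl fun y _ => by rw [hrat i hi y]
  have key : ∀ k : ZMod p, ∑ i : ZMod p, conj (ZMod.stdAddChar (k * i) : ℂ) *
      ∑ y : F, χ (x ^ i.val * f y) * conj ((μ y : ℂˣ) : ℂ) = (if k = 0 then (p : ℂ) * S1 else 0) + (S0 - S1) := by
    intro k
    have h1 : ∀ i : ZMod p, conj (ZMod.stdAddChar (k * i) : ℂ) *
        ∑ y : F, χ (x ^ i.val * f y) * conj ((μ y : ℂˣ) : ℂ) =
        conj (ZMod.stdAddChar (k * i) : ℂ) * S1 + if i = 0 then S0 - S1 else 0 := by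
      intro i
      rw [hS i, mul_add]
      split_ifs with hi
      · rw [hi, mul_zero, AddChar.map_zero_eq_one, map_one, one_mul, one_mul]
      · rw [mul_zero]
    rw [Finset.sum_congr rfl fun i _ => h1 i, Finset.sum_add_distrib, ← Finset.sum_mul,
      Finset.sum_ite_eq' Finset.univ (0 : ZMod p), if_pos (Finset.mem_univ _), ← map_sum, sum_stdAddChar]
    congr 1
    split_ifs with hk
    · rw [Complex.conj_natCast]
    · rw [map_zero, zero_mul]
  rw [key 0, if_pos rfl] at hm0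
  rw [key 1, if_neg one_ne_zero, zero_add] at hm1
  push_cast
  rw [← hm0, ← hm1]
  field_simp
  ring

end Cfsg.Agent.H393.Van
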